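import Mathlib
import Cfsg.Prelude.Def_Transfer

/-! S1904 (nonabelian 2-groups without a normal self-centralizing abelian subgroup of rank 3 that
admit an odd-order automorphism group `A` with `[X, A] = X`): definitions and the EXACT piece
statements of the team proof (helper17).  Every `St…` below is a `Prop`; a piece is a theorem
`… : St…` (possibly from other `St…` as hypotheses). -/

set_option autoImplicit false

universe u

namespace Cfsg.Agent.H17.Tg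

open Cfsg

/-- `H` is `A`-invariant -/
def AInv {X : Type u} [Group X] (A : Subgroup (MulAut X)) (H : Subgroup X) : Prop :=
  ∀ φ ∈ A, ∀ h ∈ H, φ h ∈ H

/-- `B` is a normal, `A`-invariant, abelian subgroup -/
def NAI {X : Type u} [Group X] (A : Subgroup (MulAut X)) (B : Subgroup X) : Prop :=
  B.Normal ∧ AInv A B ∧ ∀ a ∈ B, ∀ b ∈ B, a * b = b * a

/-- `B` is maximal among the normal `A`-invariant abelian subgroups -/
def MaxNAI {X : Type u} [Group X] (A : Subgroup (MulAut X)) (B : Subgroup X) : Prop :=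
  NAI A B ∧ ∀ B' : Subgroup X, NAI A B' → B ≤ B' → B' = B

/-- the standing hypotheses: `X` a finite 2-group, `A` of odd order with `[X, A] = X`, and every
elementary abelian subgroup of a normal abelian subgroup has order at most 4 -/
structure Hyp (X : Type u) [Group X] [Finite X] (A : Subgroup (MulAut X)) : Prop where
  pgrp : IsPGroup 2 X
  odd : Odd (Nat.card A)
  gen : Subgroup.closure {g : X | ∃ φ ∈ A, ∃ x : X, g = x⁻¹ * φ x} = ⊤
  rank : ∀ N : Subgroup X, N.Normal → (∀ a ∈ N, ∀ b ∈ N, a * b = b * a) →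
      ∀ E : Subgroup X, E ≤ N → (∀ a ∈ E, a ^ 2 = 1) → Nat.card E ≤ 4

/-- membership in `Q₀ = {q ∈ C_X(℧¹(B)) : q² ∈ B, [q, X] ⊆ B}` -/
def InQ0 {X : Type u} [Group X] (B : Subgroup X) (q : X) : Prop :=
  (∀ b ∈ B, q * b ^ 2 = b ^ 2 * q) ∧ q ^ 2 ∈ B ∧ ∀ x : X, q * x * q⁻¹ * x⁻¹ ∈ B

/-! ### general pieces -/

/-- RANK: the rank hypothesis follows from the absence of `SCN₃` -/
def StRank : Prop := ∀ (X : Type u) [Group X] [Finite X], IsPGroup 2 X →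
  (¬ ∃ A : Subgroup X, A.Normal ∧ Subgroup.centralizer (A : Set X) = A ∧
      ∃ E : Subgroup X, E ≤ A ∧ Cfsg.IsElementaryAbelian 2 E ∧ Nat.card E = 8) →
  ∀ N : Subgroup X, N.Normal → (∀ a ∈ N, ∀ b ∈ N, a * b = b * a) →
      ∀ E : Subgroup X, E ≤ N → (∀ a ∈ E, a ^ 2 = 1) → Nat.card E ≤ 4

/-- FIX: an element fixed by `A` modulo a normal subgroup `N ≥ X'` lies in `N` (norm map) -/
def StFix : Prop := ∀ (X : Type u) [Group X] [Finite X] (A : Subgroup (MulAut X)), Hyp X A →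
  ∀ N : Subgroup X, N.Normal → commutator X ≤ N →
    ∀ x : X, (∀ φ ∈ A, x⁻¹ * φ x ∈ N) → x ∈ N

/-- IDX2: no `A`-invariant subgroup of index 2 -/
def StIdx2 : Prop := ∀ (X : Type u) [Group X] [Finite X] (A : Subgroup (MulAut X)), Hyp X A →
  ∀ H : Subgroup X, AInv A H → H.index = 2 → False

/-- FOUR: an odd-order group acting nontrivially on a group `W` of exponent 2 and order ≤ 4 -/
def StFour : Prop := ∀ (X : Type u) [Group X] [Finite X] (A : Subgroup (MulAut X)),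
  Odd (Nat.card A) → ∀ W : Subgroup X, AInv A W → (∀ w ∈ W, w ^ 2 = 1) → Nat.card W ≤ 4 →
    (∃ φ ∈ A, ∃ w ∈ W, φ w ≠ w) →
    Nat.card W = 4 ∧
    (∀ φ ∈ A, (∀ w ∈ W, φ w = w) ∨ (∀ w ∈ W, w ≠ 1 → φ w ≠ w)) ∧
    (∀ w ∈ W, w ≠ 1 → ∃ φ ∈ A, φ w ≠ w) ∧
    (∀ w ∈ W, w ≠ 1 → ∀ w' ∈ W, w' ≠ 1 → ∃ φ ∈ A, φ w = w') ∧
    (∀ W' : Subgroup X, W' ≤ W → AInv A W' → W' = ⊥ ∨ W' = W)

/-- CENT: a normal `A`-invariant subgroup of exponent 2 is central -/
def StCent : Prop := ∀ (X : Type u) [Group X] [Finite X] (A : Subgroup (MulAut X)), Hyp X A →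
  ∀ U : Subgroup X, U.Normal → AInv A U → (∀ a ∈ U, a ^ 2 = 1) → U ≤ Subgroup.center X

/-- CRIT: for normal `B < C` in a 2-group, `C / B` meets `Ω₁(Z(X / B))` -/
def StCrit : Prop := ∀ (X : Type u) [Group X] [Finite X], IsPGroup 2 X →
  ∀ B C : Subgroup X, B.Normal → C.Normal → B ≤ C → B ≠ C →
    ∃ k ∈ C, k ∉ B ∧ k ^ 2 ∈ B ∧ ∀ x : X, k * x * k⁻¹ * x⁻¹ ∈ B

/-- FRAT: `X' = Z(X)` and `X / Z(X)` of exponent 2 give `Φ(X) = Z(X)` -/
def StFrat : Prop := ∀ (X : Type u) [Group X] [Finite X], IsPGroup 2 X →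
  commutator X = Subgroup.center X → (∀ x : X, x ^ 2 ∈ Subgroup.center X) →
  frattini X = Subgroup.center X

/-! ### Lemma 1: a non-central normal `A`-invariant abelian subgroup `B` -/

/-- L11: if `A` centralizes `Ω₁(B)` then `B` is central -/
def StL11 : Prop := ∀ (X : Type u) [Group X] [Finite X] (A : Subgroup (MulAut X)), Hyp X A →
  ∀ B : Subgroup X, NAI A B → (∀ φ ∈ A, ∀ v ∈ B, v ^ 2 = 1 → φ v = v) →
    B ≤ Subgroup.center X

/-- VB: `V_B = Ω₁(B)` is a central four-group on which `A` acts without fixed points -/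
def StVB : Prop := ∀ (X : Type u) [Group X] [Finite X] (A : Subgroup (MulAut X)), Hyp X A →
  ∀ B : Subgroup X, NAI A B → ¬ B ≤ Subgroup.center X →
    (∀ v ∈ B, v ^ 2 = 1 → v ∈ Subgroup.center X) ∧
    Nat.card {v : X // v ∈ B ∧ v ^ 2 = 1} = 4 ∧
    (∀ φ ∈ A, (∀ v ∈ B, v ^ 2 = 1 → φ v = v) ∨ (∀ v ∈ B, v ^ 2 = 1 → v ≠ 1 → φ v ≠ v)) ∧
    (∀ v ∈ B, v ^ 2 = 1 → v ≠ 1 → ∃ φ ∈ A, φ v ≠ v) ∧
    (∀ v ∈ B, v ^ 2 = 1 → v ≠ 1 → ∀ v' ∈ B, v' ^ 2 = 1 → v' ≠ 1 → ∃ φ ∈ A, φ v = v') ∧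
    (∀ W : Subgroup X, AInv A W → (∀ w ∈ W, w ∈ B ∧ w ^ 2 = 1) →
      W = ⊥ ∨ ∀ v ∈ B, v ^ 2 = 1 → v ∈ W)

/-- LAYER: a nontrivial layer `Ω_{j+1}(B) / Ω_j(B)` maps onto `V_B` under the `2^j`-th power -/
def StLayer : Prop := ∀ (X : Type u) [Group X] [Finite X] (A : Subgroup (MulAut X)), Hyp X A →
  ∀ B : Subgroup X, NAI A B → ¬ B ≤ Subgroup.center X →
    ∀ (j : ℕ) (b : X), b ∈ B → b ^ 2 ^ (j + 1) = 1 → b ^ 2 ^ j ≠ 1 →
      ∀ v ∈ B, v ^ 2 = 1 → ∃ c ∈ B, c ^ 2 ^ j = v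

/-- SQ: if `B` has an element of order `> 2^m` then every element of `Ω_m(B)` is a square in `B` -/
def StSq : Prop := ∀ (X : Type u) [Group X] [Finite X] (A : Subgroup (MulAut X)), Hyp X A →
  ∀ B : Subgroup X, NAI A B → ¬ B ≤ Subgroup.center X →
    ∀ (m : ℕ) (b₀ : X), b₀ ∈ B → b₀ ^ 2 ^ m ≠ 1 → ∀ c ∈ B, c ^ 2 ^ m = 1 → ∃ b ∈ B, b ^ 2 = c

/-- C1: if `Ω_i(B)` is central and `Ω_{i+1}(B)` is not, then `B ∩ Z(X) = Ω_i(B)` -/
def StC1 : Prop := ∀ (X : Type u) [Group X] [Finite X] (A : Subgroup (MulAut X)), Hyp X A →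
  ∀ B : Subgroup X, NAI A B → ¬ B ≤ Subgroup.center X →
    ∀ i : ℕ, (∀ b ∈ B, b ^ 2 ^ i = 1 → b ∈ Subgroup.center X) →
      (∃ b ∈ B, b ^ 2 ^ (i + 1) = 1 ∧ b ∉ Subgroup.center X) →
      ∀ z ∈ B, z ∈ Subgroup.center X → z ^ 2 ^ i = 1

/-- C2: if `Ω_i(B)` is central, an element commuting with one element of
`Ω_{i+1}(B) ∖ Ω_i(B)` centralizes `Ω_{i+1}(B)` -/
def StC2 : Prop := ∀ (X : Type u) [Group X] [Finite X] (A : Subgroup (MulAut X)), Hyp X A →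
  ∀ B : Subgroup X, NAI A B → ¬ B ≤ Subgroup.center X →
    ∀ i : ℕ, (∀ b ∈ B, b ^ 2 ^ i = 1 → b ∈ Subgroup.center X) →
      ∀ x b : X, b ∈ B → b ^ 2 ^ (i + 1) = 1 → b ^ 2 ^ i ≠ 1 → x * b = b * x →
        ∀ b' ∈ B, b' ^ 2 ^ (i + 1) = 1 → x * b' = b' * x

/-- C3: if `Ω_i(B)` is central then `C_X(Ω_{i+1}(B))` has index ≤ 4 and contains all squares -/
def StC3 : Prop := ∀ (X : Type u) [Group X] [Finite X] (A : Subgroup (MulAut X)), Hyp X A →
  ∀ B : Subgroup X, NAI A B → ¬ B ≤ Subgroup.center X →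
    ∀ i : ℕ, (∀ b ∈ B, b ^ 2 ^ i = 1 → b ∈ Subgroup.center X) →
      (Subgroup.centralizer {b : X | b ∈ B ∧ b ^ 2 ^ (i + 1) = 1}).index ≤ 4 ∧
      ∀ x : X, ∀ b ∈ B, b ^ 2 ^ (i + 1) = 1 → x ^ 2 * b = b * x ^ 2

/-! ### Case D2: a maximal normal `A`-invariant abelian subgroup `B` that is not central -/

/-- SELF: `C_X(B) = B` -/
def StSelf : Prop := ∀ (X : Type u) [Group X] [Finite X] (A : Subgroup (MulAut X)), Hyp X A →
  ∀ B : Subgroup X, MaxNAI A B → ¬ B ≤ Subgroup.center X →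
    ∀ c : X, (∀ b ∈ B, c * b = b * c) → c ∈ B

/-- M2: if `B` has exponent 4 then `X` is special of order 64 with 3 involutions -/
def StM2 : Prop := ∀ (X : Type u) [Group X] [Finite X] (A : Subgroup (MulAut X)), Hyp X A →
  ∀ B : Subgroup X, MaxNAI A B → ¬ B ≤ Subgroup.center X → (∀ b ∈ B, b ^ 4 = 1) →
    Cfsg.IsSpecial 2 X ∧ Nat.card X = 64 ∧ Nat.card {x : X // orderOf x = 2} = 3 ∧
      ∀ x : X, orderOf x = 2 → x ∈ Subgroup.center X

/-- QEX1: if some element outside `B` centralizes `Ω₂(B)`, some element outside `B`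
centralizes all squares of `B` -/
def StQex1 : Prop := ∀ (X : Type u) [Group X] [Finite X] (A : Subgroup (MulAut X)), Hyp X A →
  ∀ B : Subgroup X, MaxNAI A B → ¬ B ≤ Subgroup.center X → (∃ b ∈ B, b ^ 4 ≠ 1) →
    (∃ y : X, y ∉ B ∧ ∀ b ∈ B, b ^ 4 = 1 → y * b = b * y) →
    ∃ q : X, q ∉ B ∧ ∀ b ∈ B, q * b ^ 2 = b ^ 2 * q

/-- QEX2: if `B` has exponent ≥ 8, then `C_X(Ω₂(B)) ≠ B` -/
def StQex2 : Prop := ∀ (X : Type u) [Group X] [Finite X] (A : Subgroup (MulAut X)), Hyp X A →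
  ∀ B : Subgroup X, MaxNAI A B → ¬ B ≤ Subgroup.center X → (∃ b ∈ B, b ^ 4 ≠ 1) →
    (∀ y : X, (∀ b ∈ B, b ^ 4 = 1 → y * b = b * y) → y ∈ B) → False

/-- Q0GRP: `Q₀` is a subgroup containing `B`, stable under `A` -/
def StQ0grp : Prop := ∀ (X : Type u) [Group X] [Finite X] (A : Subgroup (MulAut X)),
  ∀ B : Subgroup X, NAI A B →
    (∀ b ∈ B, InQ0 B b) ∧ (∀ q q' : X, InQ0 B q → InQ0 B q' → InQ0 B (q * q')) ∧
    (∀ q : X, InQ0 B q → InQ0 B q⁻¹) ∧ (∀ φ ∈ A, ∀ q : X, InQ0 B q → InQ0 B (φ q))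

/-- Q0A: (exponent of `B` ≥ 8) an element of `Q₀` whose square is a square of `B` lies in `B` -/
def StQ0a : Prop := ∀ (X : Type u) [Group X] [Finite X] (A : Subgroup (MulAut X)), Hyp X A →
  ∀ B : Subgroup X, MaxNAI A B → ¬ B ≤ Subgroup.center X → (∃ b ∈ B, b ^ 4 ≠ 1) →
    ∀ q : X, InQ0 B q → (∃ b ∈ B, q ^ 2 = b ^ 2) → q ∈ B

/-- Q0B: (exponent of `B` ≥ 8) squaring is multiplicative on `Q₀` modulo squares of `B` -/
def StQ0b : Prop := ∀ (X : Type u) [Group X] [Finite X] (A : Subgroup (MulAut X)), Hyp X A →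
  ∀ B : Subgroup X, MaxNAI A B → ¬ B ≤ Subgroup.center X → (∃ b ∈ B, b ^ 4 ≠ 1) →
    ∀ q q' : X, InQ0 B q → InQ0 B q' → ∃ b ∈ B, (q * q') ^ 2 = q ^ 2 * q' ^ 2 * b ^ 2

/-- Q0C: (exponent of `B` ≥ 8) if `Q₀ ≠ B` then `B = {q² : q ∈ Q₀} · ℧¹(B)` -/
def StQ0c : Prop := ∀ (X : Type u) [Group X] [Finite X] (A : Subgroup (MulAut X)), Hyp X A →
  ∀ B : Subgroup X, MaxNAI A B → ¬ B ≤ Subgroup.center X → (∃ b ∈ B, b ^ 4 ≠ 1) →
    (∃ k : X, InQ0 B k ∧ k ∉ B) →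
    ∀ b ∈ B, ∃ q : X, InQ0 B q ∧ ∃ d ∈ B, b = q ^ 2 * d ^ 2

/-- Q0D: (exponent of `B` ≥ 8) `Q₀ = B` -/
def StQ0d : Prop := ∀ (X : Type u) [Group X] [Finite X] (A : Subgroup (MulAut X)), Hyp X A →
  ∀ B : Subgroup X, MaxNAI A B → ¬ B ≤ Subgroup.center X → (∃ b ∈ B, b ^ 4 ≠ 1) →
    ∀ q : X, InQ0 B q → q ∈ B

/-! ### Case D1: every normal `A`-invariant abelian subgroup is central -/

/-- D1QUOT: `X / Z(X)` is elementary abelian -/
def StD1Quot : Prop := ∀ (X : Type u) [Group X] [Finite X] (A : Subgroup (MulAut X)), Hyp X A →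
  (∀ B : Subgroup X, NAI A B → B ≤ Subgroup.center X) →
  (∀ x : X, x ^ 2 ∈ Subgroup.center X) ∧ (∀ x y : X, x * y * x⁻¹ * y⁻¹ ∈ Subgroup.center X)

/-- D1EXPT: `Z(X)` has exponent 2 when `A` centralizes `Ω₁(Z(X))` -/
def StD1ExpT : Prop := ∀ (X : Type u) [Group X] [Finite X] (A : Subgroup (MulAut X)), Hyp X A →
  (∀ B : Subgroup X, NAI A B → B ≤ Subgroup.center X) →
  (∀ φ ∈ A, ∀ v ∈ Subgroup.center X, v ^ 2 = 1 → φ v = v) →
  ∀ z ∈ Subgroup.center X, z ^ 2 = 1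

/-- D1EXPN: `Z(X)` has exponent 2 when `A` does not centralize `Ω₁(Z(X))` (`X` nonabelian) -/
def StD1ExpN : Prop := ∀ (X : Type u) [Group X] [Finite X] (A : Subgroup (MulAut X)), Hyp X A →
  (¬ ∀ a b : X, a * b = b * a) →
  (∀ B : Subgroup X, NAI A B → B ≤ Subgroup.center X) →
  (∃ φ ∈ A, ∃ v ∈ Subgroup.center X, v ^ 2 = 1 ∧ φ v ≠ v) →
  ∀ z ∈ Subgroup.center X, z ^ 2 = 1

/-- D1COMM: `X' = Z(X)` (`X` nonabelian) -/
def StD1Comm : Prop := ∀ (X : Type u) [Group X] [Finite X] (A : Subgroup (MulAut X)), Hyp X A →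
  (¬ ∀ a b : X, a * b = b * a) →
  (∀ B : Subgroup X, NAI A B → B ≤ Subgroup.center X) →
  commutator X = Subgroup.center X

/-- D1INV: if `|Z(X)| = 4` then every involution is central (`X` nonabelian) -/
def StD1Inv : Prop := ∀ (X : Type u) [Group X] [Finite X] (A : Subgroup (MulAut X)), Hyp X A →
  (¬ ∀ a b : X, a * b = b * a) →
  (∀ B : Subgroup X, NAI A B → B ≤ Subgroup.center X) →
  Nat.card (Subgroup.center X) = 4 → ∀ t : X, t ^ 2 = 1 → t ∈ Subgroup.center X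

/-! ### `|Z(X)| = 2`, `X / Z(X)` of exponent 2 (extraspecial 2-groups) -/

/-- INV3: three elements independent modulo the centre span a non-central involution -/
def StInv3 : Prop := ∀ (X : Type u) [Group X] [Finite X],
  Nat.card (Subgroup.center X) = 2 → (∀ x : X, x ^ 2 ∈ Subgroup.center X) →
  ∀ x₁ x₂ x₃ : X, x₁ ∉ Subgroup.center X → x₂ ∉ Subgroup.center X → x₃ ∉ Subgroup.center X →
    x₁ * x₂ ∉ Subgroup.center X → x₁ * x₃ ∉ Subgroup.center X → x₂ * x₃ ∉ Subgroup.center X →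
    x₁ * x₂ * x₃ ∉ Subgroup.center X →
    ∃ a b c : ℕ, x₁ ^ a * x₂ ^ b * x₃ ^ c ∉ Subgroup.center X ∧ (x₁ ^ a * x₂ ^ b * x₃ ^ c) ^ 2 = 1

/-- E16: no such group of order 16 -/
def StE16 : Prop := ∀ (X : Type u) [Group X] [Finite X],
  Nat.card (Subgroup.center X) = 2 → (∀ x : X, x ^ 2 ∈ Subgroup.center X) → Nat.card X ≠ 16

/-- E64: order ≥ 64 gives two commuting involutions independent modulo the centre -/
def StE64 : Prop := ∀ (X : Type u) [Group X] [Finite X],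
  Nat.card (Subgroup.center X) = 2 → (∀ x : X, x ^ 2 ∈ Subgroup.center X) → 64 ≤ Nat.card X →
  ∃ x y : X, x ∉ Subgroup.center X ∧ x ^ 2 = 1 ∧ y ^ 2 = 1 ∧ x * y = y * x ∧
    y ∉ Subgroup.center X ∧ x * y ∉ Subgroup.center X

/-- E32: order 32 without such a pair: exactly 11 involutions -/
def StE32 : Prop := ∀ (X : Type u) [Group X] [Finite X],
  Nat.card (Subgroup.center X) = 2 → (∀ x : X, x ^ 2 ∈ Subgroup.center X) → Nat.card X = 32 →
  (¬ ∃ x y : X, x ∉ Subgroup.center X ∧ x ^ 2 = 1 ∧ y ^ 2 = 1 ∧ x * y = y * x ∧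
    y ∉ Subgroup.center X ∧ x * y ∉ Subgroup.center X) →
  Nat.card {x : X // orderOf x = 2} = 11

/-- E8: a nonabelian group of order 8 with `[X, A] = X`, `A` odd, is quaternion -/
def StE8 : Prop := ∀ (X : Type u) [Group X] [Finite X] (A : Subgroup (MulAut X)), Hyp X A →
  Nat.card X = 8 → (¬ ∀ a b : X, a * b = b * a) → Nonempty (X ≃* QuaternionGroup 2)

/-! ### `|Z(X)| = 4`, `Z(X)` and `X / Z(X)` of exponent 2 -/

/-- CW5: order ≥ 128 gives a non-central involution (Chevalley–Warning, two quadratic forms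
in five variables over `𝔽₂`) -/
def StCW5 : Prop := ∀ (X : Type u) [Group X] [Finite X],
  Nat.card (Subgroup.center X) = 4 → (∀ z ∈ Subgroup.center X, z ^ 2 = 1) →
  (∀ x : X, x ^ 2 ∈ Subgroup.center X) → 128 ≤ Nat.card X →
  ∃ t : X, t ∉ Subgroup.center X ∧ t ^ 2 = 1

/-- N3: order 32 is impossible -/
def StN3 : Prop := ∀ (X : Type u) [Group X] [Finite X] (A : Subgroup (MulAut X)), Hyp X A →
  Nat.card (Subgroup.center X) = 4 → (∀ z ∈ Subgroup.center X, z ^ 2 = 1) →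
  (∀ x : X, x ^ 2 ∈ Subgroup.center X) → commutator X = Subgroup.center X →
  (∀ t : X, t ^ 2 = 1 → t ∈ Subgroup.center X) → Nat.card X ≠ 32

/-- N2: order at least 32 -/
def StN2 : Prop := ∀ (X : Type u) [Group X] [Finite X], IsPGroup 2 X →
  Nat.card (Subgroup.center X) = 4 → commutator X = Subgroup.center X → 32 ≤ Nat.card X

/-! ### the two halves and the main statement -/

/-- the conclusion of S1904 -/
def Concl (X : Type u) [Group X] : Prop :=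
  Nonempty (X ≃* QuaternionGroup 2) ∨
    (Cfsg.IsSpecial 2 X ∧ Nat.card X = 64 ∧ Nat.card {x : X // orderOf x = 2} = 3 ∧
      ∀ x : X, orderOf x = 2 → x ∈ Subgroup.center X) ∨
    (Cfsg.IsExtraspecial 2 X ∧ Nat.card X = 32 ∧ Nat.card {x : X // orderOf x = 2} = 11)

/-- D1MAIN: the conclusion when every normal `A`-invariant abelian subgroup is central -/
def StD1Main : Prop := ∀ (X : Type u) [Group X] [Finite X] (A : Subgroup (MulAut X)), Hyp X A →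
  (¬ ∀ a b : X, a * b = b * a) →
  (∀ B : Subgroup X, NAI A B → B ≤ Subgroup.center X) → Concl X

/-- D2MAIN: the conclusion when some normal `A`-invariant abelian subgroup is not central -/
def StD2Main : Prop := ∀ (X : Type u) [Group X] [Finite X] (A : Subgroup (MulAut X)), Hyp X A →
  ∀ B : Subgroup X, NAI A B → ¬ B ≤ Subgroup.center X → Concl X

end Cfsg.Agent.H17.Tg
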