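import Mathlib
import Cfsg.Prelude.Def_Classical
import Cfsg.Agent.H17.O5Sp4

set_option autoImplicit false

/-! Helper lemmas (helper17): the Klein correspondence.  `SL_4(F)` acts on the 6-dimensional
space of alternating `4 × 4` matrices preserving the Pfaffian, giving `SL_4(F) → O^+_6(F)`. -/

namespace Cfsg.Agent.H17

open Matrix
open scoped commutatorElement

variable {F : Type*} [Field F]

/-- Index type of the 6-dimensional plus-type orthogonal space. -/
abbrev I6 : Type := Fin 3 ⊕ Fin 3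

theorem det_fin_four' (g : Matrix (Fin 4) (Fin 4) F) : g.det =
    g 0 0 * (g 1 1 * (g 2 2 * g 3 3 - g 2 3 * g 3 2) - g 1 2 * (g 2 1 * g 3 3 - g 2 3 * g 3 1)
      + g 1 3 * (g 2 1 * g 3 2 - g 2 2 * g 3 1))
    - g 0 1 * (g 1 0 * (g 2 2 * g 3 3 - g 2 3 * g 3 2) - g 1 2 * (g 2 0 * g 3 3 - g 2 3 * g 3 0)
      + g 1 3 * (g 2 0 * g 3 2 - g 2 2 * g 3 0))
    + g 0 2 * (g 1 0 * (g 2 1 * g 3 3 - g 2 3 * g 3 1) - g 1 1 * (g 2 0 * g 3 3 - g 2 3 * g 3 0)
      + g 1 3 * (g 2 0 * g 3 1 - g 2 1 * g 3 0))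
    - g 0 3 * (g 1 0 * (g 2 1 * g 3 2 - g 2 2 * g 3 1) - g 1 1 * (g 2 0 * g 3 2 - g 2 2 * g 3 0)
      + g 1 2 * (g 2 0 * g 3 1 - g 2 1 * g 3 0)) := by
  rw [Matrix.det_succ_row_zero]
  simp [Fin.sum_univ_succ, Matrix.det_fin_three, Fin.succAbove]
  ring

/-- The Pfaffian of a `4 × 4` matrix (meaningful for alternating matrices). -/
def pf4 (B : Matrix (Fin 4) (Fin 4) F) : F := B 0 1 * B 2 3 - B 0 2 * B 1 3 + B 0 3 * B 1 2

/-- The alternating `4 × 4` matrix of a vector. -/
def emb6 (v : I6 → F) : Matrix (Fin 4) (Fin 4) F :=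
  !![0, v (.inl 0), v (.inl 1), v (.inl 2);
     -v (.inl 0), 0, v (.inr 2), -v (.inr 1);
     -v (.inl 1), -v (.inr 2), 0, v (.inr 0);
     -v (.inl 2), v (.inr 1), -v (.inr 0), 0]

/-- Coordinates of an alternating matrix. -/
def proj6 (B : Matrix (Fin 4) (Fin 4) F) : I6 → F :=
  Sum.elim ![B 0 1, B 0 2, B 0 3] ![B 2 3, -B 1 3, B 1 2]

theorem pf4_conj (g : Matrix (Fin 4) (Fin 4) F) (v : I6 → F) :
    pf4 (g * emb6 v * gᵀ) = g.det * Cfsg.quadFormPlus 3 F v := by
  rw [det_fin_four']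
  simp [pf4, emb6, Matrix.mul_apply, Fin.sum_univ_four, Cfsg.quadFormPlus, Fin.sum_univ_three]
  ring

theorem pf4_emb6 (v : I6 → F) : pf4 (emb6 v) = Cfsg.quadFormPlus 3 F v := by
  simp [pf4, emb6, Cfsg.quadFormPlus, Fin.sum_univ_three]

theorem proj6_emb6 (v : I6 → F) : proj6 (emb6 v) = v := by
  ext (i | i) <;> fin_cases i <;> simp [proj6, emb6]

theorem emb6_proj6 (B : Matrix (Fin 4) (Fin 4) F) (hB : Bᵀ = -B) (hd : ∀ i, B i i = 0) :
    emb6 (proj6 B) = B := by
  have key : ∀ a b, B a b = -B b a := by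
    intro a b
    have := congrFun (congrFun hB b) a
    simpa using this
  ext i j
  fin_cases i <;> fin_cases j <;> simp [emb6, proj6]
  all_goals first
    | exact (hd _).symm
    | exact (key _ _).symm

theorem conj_alt (g : Matrix (Fin 4) (Fin 4) F) (v : I6 → F) :
    (g * emb6 v * gᵀ)ᵀ = -(g * emb6 v * gᵀ) ∧ ∀ i, (g * emb6 v * gᵀ) i i = 0 := by
  constructor
  · have h1 : (emb6 v)ᵀ = -emb6 v := by
      ext i j
      fin_cases i <;> fin_cases j <;> simp [emb6]
    rw [Matrix.transpose_mul, Matrix.transpose_mul, Matrix.transpose_transpose, h1]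
    simp [Matrix.mul_assoc]
  · intro i
    fin_cases i <;> simp [emb6, Matrix.mul_apply, Fin.sum_univ_four] <;> ring

/-- The action of a `4 × 4` matrix on the 6-dimensional space. -/
def act6 (g : Matrix (Fin 4) (Fin 4) F) (v : I6 → F) : I6 → F := proj6 (g * emb6 v * gᵀ)

theorem emb6_act6 (g : Matrix (Fin 4) (Fin 4) F) (v : I6 → F) :
    emb6 (act6 g v) = g * emb6 v * gᵀ :=
  emb6_proj6 _ (conj_alt g v).1 (conj_alt g v).2

theorem act6_one (v : I6 → F) : act6 (1 : Matrix (Fin 4) (Fin 4) F) v = v := by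
  unfold act6
  simp [proj6_emb6]

theorem act6_mul (g h : Matrix (Fin 4) (Fin 4) F) (v : I6 → F) :
    act6 (g * h) v = act6 g (act6 h v) := by
  unfold act6
  rw [show proj6 (h * emb6 v * hᵀ) = act6 h v from rfl, emb6_act6, Matrix.transpose_mul]
  simp only [Matrix.mul_assoc]

theorem act6_quad (g : Matrix (Fin 4) (Fin 4) F) (hg : g.det = 1) (v : I6 → F) :
    Cfsg.quadFormPlus 3 F (act6 g v) = Cfsg.quadFormPlus 3 F v := by
  rw [← pf4_emb6 (act6 g v), emb6_act6, pf4_conj, hg, one_mul]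

/-- `emb6` as a linear map. -/
def emb6L : (I6 → F) →ₗ[F] Matrix (Fin 4) (Fin 4) F where
  toFun := emb6
  map_add' v w := by
    ext i j
    fin_cases i <;> fin_cases j <;> simp [emb6] <;> ring
  map_smul' c v := by
    ext i j
    fin_cases i <;> fin_cases j <;> simp [emb6]

/-- `proj6` as a linear map. -/
def proj6L : Matrix (Fin 4) (Fin 4) F →ₗ[F] (I6 → F) where
  toFun := proj6
  map_add' A B := by
    ext (i | i) <;> fin_cases i <;> simp [proj6] <;> ring
  map_smul' c A := by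
    ext (i | i) <;> fin_cases i <;> simp [proj6]

/-- The action as a linear map. -/
def act6L (g : Matrix (Fin 4) (Fin 4) F) : (I6 → F) →ₗ[F] (I6 → F) :=
  proj6L ∘ₗ (LinearMap.mulLeft F g ∘ₗ LinearMap.mulRight F gᵀ) ∘ₗ emb6L

theorem act6L_apply (g : Matrix (Fin 4) (Fin 4) F) (v : I6 → F) : act6L g v = act6 g v := by
  simp [act6L, act6, proj6L, emb6L, Matrix.mul_assoc]

/-- The matrix of the action. -/
noncomputable def mat6 (g : Matrix (Fin 4) (Fin 4) F) : Matrix I6 I6 F :=
  LinearMap.toMatrix' (act6L g)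

theorem mat6_mulVec (g : Matrix (Fin 4) (Fin 4) F) (v : I6 → F) : mat6 g *ᵥ v = act6 g v := by
  rw [mat6, LinearMap.toMatrix'_mulVec, act6L_apply]

theorem mat6_one : mat6 (1 : Matrix (Fin 4) (Fin 4) F) = 1 := by
  have : act6L (1 : Matrix (Fin 4) (Fin 4) F) = LinearMap.id := by
    apply LinearMap.ext
    intro v
    rw [act6L_apply, act6_one, LinearMap.id_apply]
  rw [mat6, this, LinearMap.toMatrix'_id]

theorem mat6_mul (g h : Matrix (Fin 4) (Fin 4) F) : mat6 (g * h) = mat6 g * mat6 h := by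
  have : act6L (g * h) = act6L g ∘ₗ act6L h := by
    apply LinearMap.ext
    intro v
    rw [LinearMap.comp_apply, act6L_apply, act6L_apply, act6L_apply, act6_mul]
  rw [mat6, this, LinearMap.toMatrix'_comp]
  rfl

/-- The homomorphism `SL_4(F) → Mat_6(F)`. -/
noncomputable def hom6m : Matrix.SpecialLinearGroup (Fin 4) F →* Matrix I6 I6 F where
  toFun g := mat6 (g : Matrix (Fin 4) (Fin 4) F)
  map_one' := mat6_one
  map_mul' _ _ := mat6_mul _ _

/-- The homomorphism `SL_4(F) → O^+_6(F)`. -/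
noncomputable def hom6 :
    Matrix.SpecialLinearGroup (Fin 4) F →* ↥(Cfsg.isometryGroup F (Cfsg.quadFormPlus 3 F)) :=
  (hom6m).toHomUnits.codRestrict _ (fun g => by
    intro u v
    show Cfsg.quadFormPlus 3 F (mat6 (g : Matrix (Fin 4) (Fin 4) F) *ᵥ u) =
      Cfsg.quadFormPlus 3 F u
    rw [mat6_mulVec, act6_quad _ g.2])

theorem hom6_mulVec (g : Matrix.SpecialLinearGroup (Fin 4) F) (v : I6 → F) :
    (((hom6 g : ↥(Cfsg.isometryGroup F (Cfsg.quadFormPlus 3 F))) :
      Matrix.GeneralLinearGroup I6 F) : Matrix I6 I6 F) *ᵥ v =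
      act6 (g : Matrix (Fin 4) (Fin 4) F) v :=
  mat6_mulVec _ v

theorem hom6_eq_one_iff (g : Matrix.SpecialLinearGroup (Fin 4) F) :
    hom6 g = 1 ↔ ∀ v : I6 → F,
      (g : Matrix (Fin 4) (Fin 4) F) * emb6 v * (g : Matrix (Fin 4) (Fin 4) F)ᵀ = emb6 v := by
  constructor
  · intro hg v
    have h1 := hom6_mulVec g v
    rw [hg] at h1
    have h2 : act6 (g : Matrix (Fin 4) (Fin 4) F) v = v := by
      rw [← h1]
      simp
    rw [← emb6_act6, h2]
  · intro hall
    apply Subtype.ext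
    apply Units.ext
    show mat6 (g : Matrix (Fin 4) (Fin 4) F) = 1
    have : act6L (g : Matrix (Fin 4) (Fin 4) F) = LinearMap.id := by
      apply LinearMap.ext
      intro v
      rw [act6L_apply, LinearMap.id_apply]
      apply Function.LeftInverse.injective (g := proj6) proj6_emb6
      rw [emb6_act6, hall v]
    rw [mat6, this, LinearMap.toMatrix'_id]

/-- A nontrivial homomorphism from a perfect group with simple central quotient has central
kernel. -/
theorem ker_le_center_of_simple {G H : Type*} [Group G] [Group H] (φ : G →* H)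
    (hs : IsSimpleGroup (G ⧸ Subgroup.center G)) (hperf : commutator G = ⊤)
    (hne : ∃ g, φ g ≠ 1) : φ.ker ≤ Subgroup.center G := by
  have hn : (φ.ker.map (QuotientGroup.mk' (Subgroup.center G))).Normal :=
    Subgroup.Normal.map inferInstance _ (QuotientGroup.mk'_surjective _)
  rcases hn.eq_bot_or_eq_top with h | h
  · rw [Subgroup.map_eq_bot_iff, QuotientGroup.ker_mk'] at h
    exact h
  · exfalso
    have h1 := congrArg (Subgroup.comap (QuotientGroup.mk' (Subgroup.center G))) h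
    rw [Subgroup.comap_map_eq, QuotientGroup.ker_mk', Subgroup.comap_top] at h1
    have hall : ∀ a : G, ∃ z ∈ Subgroup.center G, φ a = φ z := by
      intro a
      have ha : a ∈ φ.ker ⊔ Subgroup.center G := by rw [h1]; trivial
      obtain ⟨n, hn, z, hz, rfl⟩ := Subgroup.mem_sup_of_normal_right.mp ha
      exact ⟨z, hz, by rw [map_mul, MonoidHom.mem_ker.mp hn, one_mul]⟩
    have hcomm : commutator G ≤ φ.ker := by
      rw [commutator_def, Subgroup.commutator_le]
      intro a _ b _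
      obtain ⟨z₁, hz₁, e₁⟩ := hall a
      obtain ⟨z₂, hz₂, e₂⟩ := hall b
      rw [MonoidHom.mem_ker, map_commutatorElement, e₁, e₂, ← map_commutatorElement]
      have : ⁅z₁, z₂⁆ = 1 := by
        rw [commutatorElement_eq_one_iff_commute]
        exact Subgroup.mem_center_iff.mp hz₂ z₁
      rw [this, map_one]
    rw [hperf] at hcomm
    obtain ⟨g, hg⟩ := hne
    exact hg (hcomm (Subgroup.mem_top g))

/-- The Klein homomorphism is nontrivial. -/
theorem hom6_ne_one : ∃ g : Matrix.SpecialLinearGroup (Fin 4) F, hom6 g ≠ 1 := by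
  refine ⟨Matrix.SpecialLinearGroup.transvection (i := (0 : Fin 4)) (j := 1) (by decide) 1, ?_⟩
  intro h
  have h1 := (hom6_eq_one_iff _).mp h (Pi.single (Sum.inr 2) 1)
  have h2 := congrFun (congrFun h1 0) 2
  simp [emb6, Matrix.mul_apply, Fin.sum_univ_four, Matrix.SpecialLinearGroup.transvection,
    Matrix.transvection, Matrix.one_apply, Matrix.single_apply] at h2

/-- Central elements of the kernel of the Klein homomorphism are `±1`. -/
theorem hom6_ker_pm (g : Matrix.SpecialLinearGroup (Fin 4) F) (hg : hom6 g = 1)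
    (hc : g ∈ Subgroup.center (Matrix.SpecialLinearGroup (Fin 4) F)) :
    (g : Matrix (Fin 4) (Fin 4) F) = 1 ∨ (g : Matrix (Fin 4) (Fin 4) F) = -1 := by
  rw [Matrix.SpecialLinearGroup.mem_center_iff] at hc
  obtain ⟨r, -, hrg⟩ := hc
  have h1 := (hom6_eq_one_iff g).mp hg (Pi.single (Sum.inl 0) 1)
  rw [← hrg] at h1
  have h2 := congrFun (congrFun h1 0) 1
  simp [emb6, Matrix.mul_apply, Fin.sum_univ_four] at h2
  have h3 : (r - 1) * (r + 1) = 0 := by linear_combination h2
  rw [← hrg]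
  rcases mul_eq_zero.mp h3 with h4 | h4
  · left
    have : r = 1 := by linear_combination h4
    rw [this]
    simp
  · right
    have : r = -1 := by linear_combination h4
    rw [this]
    ext i j
    by_cases hij : i = j <;> simp [hij, Matrix.diagonal_apply, Matrix.one_apply]

end Cfsg.Agent.H17
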