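import Mathlib
import Cfsg.Prelude.Def_Classical
import Cfsg.Agent.H17.O6Plus
import Cfsg.Agent.H17.O4Minus
import Cfsg.Agent.H17.GUDet

set_option autoImplicit false

/-! Helper lemmas (helper17): the twisted Klein correspondence `SU_4(q) → O^-_6(q)`. -/

namespace Cfsg.Agent.H17

open Matrix

section general

variable {K : Type*} [Field K]

/-- Exchange of the two halves of the coordinates (the Hodge star on alternating matrices). -/
def swap6 (v : I6 → K) : I6 → K := v ∘ Sum.swap

set_option maxHeartbeats 4000000 in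
theorem act6_transpose_swap (g : Matrix (Fin 4) (Fin 4) K) (v : I6 → K) :
    act6 gᵀ (swap6 (act6 g v)) = g.det • swap6 v := by
  rw [det_fin_four']
  ext (i | i) <;> fin_cases i <;>
    simp [act6, proj6, emb6, swap6, Matrix.mul_apply, Fin.sum_univ_four] <;> ring

set_option maxHeartbeats 4000000 in
theorem act6_map (σ : K →+* K) (g : Matrix (Fin 4) (Fin 4) K) (v : I6 → K) :
    act6 (g.map σ) (fun i => σ (v i)) = fun i => σ (act6 g v i) := by
  ext (i | i) <;> fin_cases i <;>
    simp [act6, proj6, emb6, Matrix.mul_apply, Fin.sum_univ_four]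

theorem act6_smul_one (r : K) (v : I6 → K) :
    act6 (r • (1 : Matrix (Fin 4) (Fin 4) K)) v = (r * r) • v := by
  ext (i | i) <;> fin_cases i <;>
    simp [act6, proj6, emb6, Matrix.mul_apply, Matrix.one_apply] <;> ring

end general

section su

variable {K : Type*} [Field K] [Fintype K] {q : ℕ}

/-- The action of `SU_4` commutes with the twisted Hodge star. -/
theorem su4_swap_act (hK : Fintype.card K = q ^ 2) (g : ↥(Cfsg.SU 4 K q)) (v : I6 → K)
    (hv : swap6 v = fun i => (v i) ^ q) :
    swap6 (act6 ((g : Matrix.SpecialLinearGroup (Fin 4) K) : Matrix (Fin 4) (Fin 4) K) v) =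
      fun i => (act6 ((g : Matrix.SpecialLinearGroup (Fin 4) K) : Matrix (Fin 4) (Fin 4) K) v i) ^ q
    := by
  obtain ⟨G, hG⟩ : ∃ G : Matrix (Fin 4) (Fin 4) K,
      G = ((g : Matrix.SpecialLinearGroup (Fin 4) K) : Matrix (Fin 4) (Fin 4) K) := ⟨_, rfl⟩
  rw [← hG]
  have hpres : ∀ x y, Cfsg.hermForm 4 K q (G *ᵥ x) (G *ᵥ y) = Cfsg.hermForm 4 K q x y := by
    intro x y
    rw [hG]
    exact g.2 x y
  have hdet : G.det = 1 := by
    rw [hG]
    exact (g : Matrix.SpecialLinearGroup (Fin 4) K).2
  have h1 : Gᵀ * G.map (frobHom hK) = 1 := gu_transpose_mul_map hK 4 G hpres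
  have h2 : G.map (frobHom hK) * Gᵀ = 1 := mul_eq_one_comm.mp h1
  have h3 := act6_transpose_swap G v
  rw [hdet, one_smul] at h3
  have h4 : act6 (G.map (frobHom hK)) (act6 Gᵀ (swap6 (act6 G v))) = swap6 (act6 G v) := by
    rw [← act6_mul, h2, act6_one]
  rw [h3] at h4
  rw [← h4, hv]
  exact act6_map (frobHom hK) G v

end su

section coords

variable {K : Type*} [Field K]

/-- Index type of the 6-dimensional minus-type orthogonal space. -/
abbrev I6m : Type := (Fin 2 ⊕ Fin 2) ⊕ Fin 2

variable (α β u s : K)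

/-- A `K`-linear change of coordinates on `K^6`. -/
def embK (c : I6m → K) : I6 → K :=
  Sum.elim
    ![(c (.inl (.inl 0)) + c (.inl (.inl 1)) * α) +
        (c (.inl (.inr 0)) * α - c (.inl (.inr 1))) / (α - β) * (1 + s),
      u * ((c (.inl (.inl 0)) + c (.inl (.inl 1)) * α) +
        (c (.inl (.inr 0)) * α - c (.inl (.inr 1))) / (α - β) * s),
      c (.inr 0) - α * c (.inr 1)]
    ![(c (.inl (.inl 0)) + c (.inl (.inl 1)) * β) -
        (c (.inl (.inr 0)) * β - c (.inl (.inr 1))) / (β - α) * s,
      (-u⁻¹) * ((c (.inl (.inl 0)) + c (.inl (.inl 1)) * β) +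
        (c (.inl (.inr 0)) * β - c (.inl (.inr 1))) / (β - α) * (-1 - s)),
      c (.inr 0) - β * c (.inr 1)]

/-- The inverse change of coordinates. -/
def kc (w : I6 → K) : I6m → K :=
  Sum.elim
    (Sum.elim
      ![(α * (-u * w (.inr 1) + (w (.inr 0) + u * w (.inr 1)) * (1 + s)) -
            β * (w (.inl 1) / u - (w (.inl 0) - w (.inl 1) / u) * s)) / (α - β),
        ((w (.inl 1) / u - (w (.inl 0) - w (.inl 1) / u) * s) -
            (-u * w (.inr 1) + (w (.inr 0) + u * w (.inr 1)) * (1 + s))) / (α - β)]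
      ![(w (.inl 0) - w (.inl 1) / u) + (w (.inr 0) + u * w (.inr 1)),
        (w (.inr 0) + u * w (.inr 1)) * α + (w (.inl 0) - w (.inl 1) / u) * β])
    ![(β * w (.inl 2) - α * w (.inr 2)) / (β - α),
      (w (.inl 2) - w (.inr 2)) / (β - α)]

variable {α β u s}

theorem kc_embK (hαβ : α ≠ β) (hu : u ≠ 0) (c : I6m → K) : kc α β u s (embK α β u s c) = c := by
  have hd : α - β ≠ 0 := sub_ne_zero.mpr hαβ
  have hd' : β - α ≠ 0 := sub_ne_zero.mpr (Ne.symm hαβ)
  ext ((i | i) | i) <;> fin_cases i <;> simp [kc, embK] <;> field_simp <;> ring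

theorem embK_kc (hαβ : α ≠ β) (hu : u ≠ 0) (w : I6 → K) : embK α β u s (kc α β u s w) = w := by
  have hd : α - β ≠ 0 := sub_ne_zero.mpr hαβ
  have hd' : β - α ≠ 0 := sub_ne_zero.mpr (Ne.symm hαβ)
  ext (i | i) <;> fin_cases i <;> simp [kc, embK] <;> field_simp <;> ring

theorem embK_frob (σ : K →+* K) (hα : σ α = β) (hβ : σ β = α) (hu : σ u = -u⁻¹)
    (hs : σ s = -1 - s) (hu0 : u ≠ 0) (c : I6m → K) :
    (fun i => σ (embK α β u s c i)) = swap6 (embK α β u s (fun i => σ (c i))) := by
  ext (i | i) <;> fin_cases i <;>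
    simp [embK, swap6, map_add, map_sub, map_mul, map_div₀, map_neg, map_inv₀, hα, hβ, hu, hs] <;>
    field_simp <;> ring

theorem embK_quad (hαβ : α ≠ β) (hu : u ≠ 0) (c : I6m → K) :
    Cfsg.quadFormPlus 3 K (embK α β u s c) =
      c (.inl (.inl 0)) * c (.inl (.inr 0)) + c (.inl (.inl 1)) * c (.inl (.inr 1)) +
        (c (.inr 0) - α * c (.inr 1)) * (c (.inr 0) - β * c (.inr 1)) := by
  have hd : α - β ≠ 0 := sub_ne_zero.mpr hαβ
  have hd' : β - α ≠ 0 := sub_ne_zero.mpr (Ne.symm hαβ)
  simp [Cfsg.quadFormPlus, embK, Fin.sum_univ_three]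
  field_simp
  ring

theorem embK_add (c c' : I6m → K) :
    embK α β u s (c + c') = embK α β u s c + embK α β u s c' := by
  ext (i | i) <;> fin_cases i <;> simp [embK] <;> ring

theorem embK_smul (r : K) (c : I6m → K) : embK α β u s (r • c) = r • embK α β u s c := by
  ext (i | i) <;> fin_cases i <;> simp [embK] <;> ring

theorem swap6_swap6 (w : I6 → K) : swap6 (swap6 w) = w := by
  ext (i | i) <;> rfl

end coords

section descent

variable {F K : Type*} [Field F] [Field K] [Fintype K] {q : ℕ}

/-- The data needed for the twisted Klein correspondence. -/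
structure KlGood (hK : Fintype.card K = q ^ 2) (φ : F →+* K) (α β u s : K) : Prop where
  qe : QExt hK φ α β
  hu : u * u ^ q = -1
  hs : s + s ^ q = -1

variable (φ : F →+* K) (α β u s : K)

/-- The embedding of `F^6` into `K^6`. -/
def embF (v : I6m → F) : I6 → K := embK α β u s (fun i => φ (v i))

/-- `F`-coordinates of a vector of `K^6`. -/
noncomputable def projF (w : I6 → K) : I6m → F :=
  fun i => Function.invFun φ (kc α β u s w i)

variable {φ α β u s}

theorem KlGood.u_ne {hK : Fintype.card K = q ^ 2} (h : KlGood hK φ α β u s) : u ≠ 0 := by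
  rintro rfl
  have := h.hu
  rw [zero_mul] at this
  exact (neg_ne_zero.mpr one_ne_zero) this.symm

theorem KlGood.frob_u {hK : Fintype.card K = q ^ 2} (h : KlGood hK φ α β u s) :
    frobHom hK u = -u⁻¹ := by
  show u ^ q = -u⁻¹
  have hu0 := h.u_ne
  field_simp
  linear_combination h.hu

theorem KlGood.frob_s {hK : Fintype.card K = q ^ 2} (h : KlGood hK φ α β u s) :
    frobHom hK s = -1 - s := by
  show s ^ q = -1 - s
  linear_combination h.hs

theorem projF_embF {hK : Fintype.card K = q ^ 2} (h : KlGood hK φ α β u s) (v : I6m → F) :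
    projF φ α β u s (embF φ α β u s v) = v := by
  ext i
  show Function.invFun φ (kc α β u s (embK α β u s (fun i => φ (v i))) i) = v i
  rw [kc_embK h.qe.ne h.u_ne]
  exact Function.leftInverse_invFun φ.injective (v i)

theorem embF_injective {hK : Fintype.card K = q ^ 2} (h : KlGood hK φ α β u s) :
    Function.Injective (embF φ α β u s) :=
  Function.LeftInverse.injective (projF_embF h)

theorem embF_conj {hK : Fintype.card K = q ^ 2} (h : KlGood hK φ α β u s) (v : I6m → F) :
    swap6 (embF φ α β u s v) = fun i => (embF φ α β u s v i) ^ q := by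
  have h1 := embK_frob (frobHom hK) h.qe.σα h.qe.σβ h.frob_u h.frob_s h.u_ne (fun i => φ (v i))
  have h2 : (fun i => frobHom hK (φ (v i))) = fun i => φ (v i) := by
    ext i
    exact h.qe.fixφ (v i)
  rw [h2] at h1
  exact h1.symm

theorem embF_projF {hK : Fintype.card K = q ^ 2} (h : KlGood hK φ α β u s) (w : I6 → K)
    (hw : swap6 w = fun i => (w i) ^ q) : embF φ α β u s (projF φ α β u s w) = w := by
  have h1 := embK_frob (frobHom hK) h.qe.σα h.qe.σβ h.frob_u h.frob_s h.u_ne (kc α β u s w)
  rw [embK_kc h.qe.ne h.u_ne] at h1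
  have h2 : w = embK α β u s (fun i => frobHom hK (kc α β u s w i)) := by
    have h3 : swap6 w = swap6 (embK α β u s (fun i => frobHom hK (kc α β u s w i))) := by
      rw [hw, ← h1]
      rfl
    have h4 := congrArg swap6 h3
    rwa [swap6_swap6, swap6_swap6] at h4
  have h5 : kc α β u s w = fun i => frobHom hK (kc α β u s w i) := by
    conv_lhs => rw [h2]
    rw [kc_embK h.qe.ne h.u_ne]
  have h6 : ∀ i, φ (Function.invFun φ (kc α β u s w i)) = kc α β u s w i := by
    intro i
    apply Function.invFun_eq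
    apply h.qe.fix
    exact (congrFun h5 i).symm
  show embK α β u s (fun i => φ (Function.invFun φ (kc α β u s w i))) = w
  rw [funext h6, embK_kc h.qe.ne h.u_ne]

theorem embF_quad {hK : Fintype.card K = q ^ 2} (h : KlGood hK φ α β u s) (a b : F)
    (ha : φ a = -(α + β)) (hb : φ b = α * β) (v : I6m → F) :
    Cfsg.quadFormPlus 3 K (embF φ α β u s v) = φ (Cfsg.quadFormMinus 2 F a b v) := by
  unfold embF
  rw [embK_quad h.qe.ne h.u_ne]
  unfold Cfsg.quadFormMinus
  simp only [Fin.sum_univ_two, map_add, map_mul, map_pow, ha, hb]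
  ring

theorem embF_add (v w : I6m → F) :
    embF φ α β u s (v + w) = embF φ α β u s v + embF φ α β u s w := by
  unfold embF
  rw [← embK_add]
  congr 1
  ext i
  simp

theorem embF_smul (c : F) (v : I6m → F) :
    embF φ α β u s (c • v) = φ c • embF φ α β u s v := by
  unfold embF
  rw [← embK_smul]
  congr 1
  ext i
  simp

variable (φ α β u s)

/-- The action on `F^6`. -/
noncomputable def actF (g : Matrix (Fin 4) (Fin 4) K) (v : I6m → F) : I6m → F :=
  projF φ α β u s (act6 g (embF φ α β u s v))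

variable {φ α β u s}

theorem embF_actF {hK : Fintype.card K = q ^ 2} (h : KlGood hK φ α β u s)
    (g : ↥(Cfsg.SU 4 K q)) (v : I6m → F) :
    embF φ α β u s (actF φ α β u s
      ((g : Matrix.SpecialLinearGroup (Fin 4) K) : Matrix (Fin 4) (Fin 4) K) v) =
      act6 ((g : Matrix.SpecialLinearGroup (Fin 4) K) : Matrix (Fin 4) (Fin 4) K)
        (embF φ α β u s v) :=
  embF_projF h _ (su4_swap_act hK g _ (embF_conj h v))

theorem act6_add (g : Matrix (Fin 4) (Fin 4) K) (x y : I6 → K) :
    act6 g (x + y) = act6 g x + act6 g y := by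
  rw [← act6L_apply, ← act6L_apply, ← act6L_apply, map_add]

theorem act6_smul (g : Matrix (Fin 4) (Fin 4) K) (r : K) (x : I6 → K) :
    act6 g (r • x) = r • act6 g x := by
  rw [← act6L_apply, ← act6L_apply, map_smul]

/-- The action as a linear map. -/
noncomputable def actFL {hK : Fintype.card K = q ^ 2} (h : KlGood hK φ α β u s)
    (g : ↥(Cfsg.SU 4 K q)) : (I6m → F) →ₗ[F] (I6m → F) where
  toFun := actF φ α β u s ((g : Matrix.SpecialLinearGroup (Fin 4) K) : Matrix (Fin 4) (Fin 4) K)
  map_add' v w := by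
    apply embF_injective h
    rw [embF_actF h, embF_add, embF_add, embF_actF h, embF_actF h, act6_add]
  map_smul' c v := by
    apply embF_injective h
    rw [embF_actF h, embF_smul, RingHom.id_apply, embF_smul, embF_actF h, act6_smul]

theorem actFL_apply {hK : Fintype.card K = q ^ 2} (h : KlGood hK φ α β u s)
    (g : ↥(Cfsg.SU 4 K q)) (v : I6m → F) :
    actFL h g v = actF φ α β u s
      ((g : Matrix.SpecialLinearGroup (Fin 4) K) : Matrix (Fin 4) (Fin 4) K) v := rfl

/-- The homomorphism `SU_4(q) → Mat_6(F)`. -/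
noncomputable def homF0 {hK : Fintype.card K = q ^ 2} (h : KlGood hK φ α β u s) :
    ↥(Cfsg.SU 4 K q) →* Matrix I6m I6m F where
  toFun g := LinearMap.toMatrix' (actFL h g)
  map_one' := by
    have : actFL h (1 : ↥(Cfsg.SU 4 K q)) = LinearMap.id := by
      apply LinearMap.ext
      intro v
      rw [actFL_apply, LinearMap.id_apply]
      apply embF_injective h
      rw [embF_actF h]
      exact act6_one _
    rw [this, LinearMap.toMatrix'_id]
  map_mul' g g' := by
    have : actFL h (g * g') = actFL h g ∘ₗ actFL h g' := by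
      apply LinearMap.ext
      intro v
      rw [LinearMap.comp_apply, actFL_apply, actFL_apply, actFL_apply]
      apply embF_injective h
      rw [embF_actF h, embF_actF h, embF_actF h, ← act6_mul]
      rfl
    rw [this, LinearMap.toMatrix'_comp]

theorem homF0_mulVec {hK : Fintype.card K = q ^ 2} (h : KlGood hK φ α β u s)
    (g : ↥(Cfsg.SU 4 K q)) (v : I6m → F) :
    homF0 h g *ᵥ v = actF φ α β u s
      ((g : Matrix.SpecialLinearGroup (Fin 4) K) : Matrix (Fin 4) (Fin 4) K) v := by
  show LinearMap.toMatrix' (actFL h g) *ᵥ v = _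
  rw [LinearMap.toMatrix'_mulVec, actFL_apply]

theorem actF_quad {hK : Fintype.card K = q ^ 2} (h : KlGood hK φ α β u s) (a b : F)
    (ha : φ a = -(α + β)) (hb : φ b = α * β) (g : ↥(Cfsg.SU 4 K q)) (v : I6m → F) :
    Cfsg.quadFormMinus 2 F a b (actF φ α β u s
      ((g : Matrix.SpecialLinearGroup (Fin 4) K) : Matrix (Fin 4) (Fin 4) K) v) =
      Cfsg.quadFormMinus 2 F a b v := by
  apply φ.injective
  rw [← embF_quad h a b ha hb, ← embF_quad h a b ha hb, embF_actF h,
    act6_quad _ (g : Matrix.SpecialLinearGroup (Fin 4) K).2]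

/-- The homomorphism `SU_4(q) → O^-_6(q)`. -/
noncomputable def homF {hK : Fintype.card K = q ^ 2} (h : KlGood hK φ α β u s) (a b : F)
    (ha : φ a = -(α + β)) (hb : φ b = α * β) :
    ↥(Cfsg.SU 4 K q) →* ↥(Cfsg.isometryGroup F (Cfsg.quadFormMinus 2 F a b)) :=
  (homF0 h).toHomUnits.codRestrict _ (fun g => by
    intro x y
    show Cfsg.quadFormMinus 2 F a b (homF0 h g *ᵥ x) = Cfsg.quadFormMinus 2 F a b x
    rw [homF0_mulVec, actF_quad h a b ha hb])

theorem homF_eq_one_iff {hK : Fintype.card K = q ^ 2} (h : KlGood hK φ α β u s) (a b : F)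
    (ha : φ a = -(α + β)) (hb : φ b = α * β) (g : ↥(Cfsg.SU 4 K q)) :
    homF h a b ha hb g = 1 ↔ ∀ v : I6m → F,
      act6 ((g : Matrix.SpecialLinearGroup (Fin 4) K) : Matrix (Fin 4) (Fin 4) K)
        (embF φ α β u s v) = embF φ α β u s v := by
  constructor
  · intro hg v
    have h1 : homF0 h g *ᵥ v = v := by
      have h2 : (((homF h a b ha hb g : ↥(Cfsg.isometryGroup F (Cfsg.quadFormMinus 2 F a b))) :
          Matrix.GeneralLinearGroup I6m F) : Matrix I6m I6m F) *ᵥ v = v := by
        rw [hg]; simp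
      exact h2
    rw [homF0_mulVec] at h1
    rw [← embF_actF h, h1]
  · intro hall
    apply Subtype.ext
    apply Units.ext
    show LinearMap.toMatrix' (actFL h g) = 1
    have : actFL h g = LinearMap.id := by
      apply LinearMap.ext
      intro v
      rw [actFL_apply, LinearMap.id_apply]
      apply embF_injective h
      rw [embF_actF h, hall v]
    rw [this, LinearMap.toMatrix'_id]

/-- A scalar element of the kernel has square one. -/
theorem homF_scalar_sq {hK : Fintype.card K = q ^ 2} (h : KlGood hK φ α β u s) (a b : F)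
    (ha : φ a = -(α + β)) (hb : φ b = α * β) (g : ↥(Cfsg.SU 4 K q))
    (hg : homF h a b ha hb g = 1) (r : K)
    (hr : ((g : Matrix.SpecialLinearGroup (Fin 4) K) : Matrix (Fin 4) (Fin 4) K) = r • 1) :
    r * r = 1 := by
  have h1 := (homF_eq_one_iff h a b ha hb g).mp hg (Pi.single (Sum.inr 0) 1)
  rw [hr, act6_smul_one] at h1
  have h2 := congrFun h1 (Sum.inl 2)
  simp [embF, embK] at h2
  exact h2

end descent

end Cfsg.Agent.H17
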