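import Mathlib
import Cfsg.Prelude.Def_Classical
import Cfsg.Agent.H17.O6Minus
import Cfsg.Agent.H17.O4MinusB
import Cfsg.Agent.H17.HermBasis
import Cfsg.Agent.H17.WittHerm
import Cfsg.Agent.H7.SUCenter

set_option autoImplicit false

/-! Helper lemmas (helper17): the twisted Klein correspondence, part 2. -/

namespace Cfsg.Agent.H17

open Matrix

section

variable {K : Type*} [Field K] [Fintype K] {q : ℕ}

/-- Central elements of `SU_n(q)` are scalar. -/
theorem su_center_scalar (hK : Fintype.card K = q ^ 2) (n : ℕ) (hn : 2 ≤ n)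
    (z : ↥(Cfsg.SU n K q)) (hz : z ∈ Subgroup.center ↥(Cfsg.SU n K q)) :
    ∃ r : K, ((z : Matrix.SpecialLinearGroup (Fin n) K) : Matrix (Fin n) (Fin n) K) = r • 1 := by
  obtain ⟨z0, hz0, hz0sq⟩ := Cfsg.Agent.H7.exists_norm_one_sq_ne_one hK
  have hq := two_le_of_card_sq hK
  have hz00 : z0 ≠ 0 := by
    rintro rfl
    rw [zero_pow (by omega)] at hz0
    exact zero_ne_one hz0
  let i0 : Fin n := ⟨0, by omega⟩
  have hcomm : ∀ s : Matrix.SpecialLinearGroup (Fin n) K, s ∈ Cfsg.SU n K q →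
      s.1 * z.1.1 = z.1.1 * s.1 := by
    intro s hs
    have := Subgroup.mem_center_iff.mp hz ⟨s, hs⟩
    have h2 := congrArg (fun x : Cfsg.SU n K q => x.1.1) this
    exact h2
  have hoff : ∀ i j : Fin n, i ≠ j → z.1.1 i j = 0 := by
    intro i j hij
    have h := hcomm _ (Cfsg.Agent.H7.diag2n_mem_SU hij z0 hz0 hz00)
    have hij' := congrFun (congrFun h i) j
    rw [Matrix.SpecialLinearGroup.diag2n_coe, Matrix.diagonal_mul, Matrix.mul_diagonal] at hij'
    simp only [if_true, hij.symm, if_false] at hij'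
    have h3 : z.1.1 i j * (z0 - z0⁻¹) = 0 := by linear_combination hij'
    have h4 : z0 - z0⁻¹ ≠ 0 := by
      intro h5
      apply hz0sq
      have : z0 = z0⁻¹ := sub_eq_zero.mp h5
      rw [pow_two]
      nth_rewrite 2 [this]
      exact mul_inv_cancel₀ hz00
    exact (mul_eq_zero.mp h3).resolve_right h4
  have hdiag : ∀ i j : Fin n, i ≠ j → z.1.1 i i = z.1.1 j j := by
    intro i j hij
    have h := hcomm _ (Cfsg.Agent.H7.sswap_mem_SU hK hij)
    have hij' := congrFun (congrFun h i) j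
    rw [Matrix.mul_apply, Matrix.mul_apply] at hij'
    rw [Finset.sum_eq_single j, Finset.sum_eq_single i] at hij'
    · rw [Cfsg.Agent.H7.sswap_coe] at hij'
      simp [hij, hij.symm] at hij'
      exact hij'.symm
    · intro k _ hk
      rw [hoff i k (Ne.symm hk), zero_mul]
    · intro h; exact absurd (Finset.mem_univ i) h
    · intro k _ hk
      rw [hoff k j hk, mul_zero]
    · intro h; exact absurd (Finset.mem_univ j) h
  refine ⟨z.1.1 i0 i0, ?_⟩
  ext i j
  by_cases hij : i = j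
  · subst hij
    by_cases hi : i = i0
    · rw [hi]; simp
    · rw [hdiag i i0 hi]; simp
  · rw [hoff i j hij]
    simp [Matrix.one_apply, hij]

end

section descent

variable {F K : Type*} [Field F] [Field K] [Fintype K] {q : ℕ}
variable {φ : F →+* K} {α β u s : K}

/-- The twisted Klein homomorphism is nontrivial. -/
theorem homF_ne_one {hK : Fintype.card K = q ^ 2} (h : KlGood hK φ α β u s) (a b : F)
    (ha : φ a = -(α + β)) (hb : φ b = α * β) :
    ∃ g : ↥(Cfsg.SU 4 K q), homF h a b ha hb g ≠ 1 := by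
  obtain ⟨z0, hz0, hz0sq⟩ := Cfsg.Agent.H7.exists_norm_one_sq_ne_one hK
  have hq := two_le_of_card_sq hK
  have hz00 : z0 ≠ 0 := by
    rintro rfl
    rw [zero_pow (by omega)] at hz0
    exact zero_ne_one hz0
  have h01 : (0 : Fin 4) ≠ 1 := by decide
  refine ⟨⟨Matrix.SpecialLinearGroup.diag2n h01 z0 hz00,
    Cfsg.Agent.H7.diag2n_mem_SU h01 z0 hz0 hz00⟩, ?_⟩
  intro hg
  have h1 := (homF_eq_one_iff h a b ha hb _).mp hg (Pi.single (Sum.inr 0) 1)
  have h2 := congrFun h1 (Sum.inl 2)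
  simp only [Matrix.SpecialLinearGroup.diag2n_coe] at h2
  simp [embF, embK, act6, proj6, emb6, Matrix.mul_apply, Fin.sum_univ_four,
    Matrix.diagonal_apply] at h2
  apply hz0sq
  rw [h2, one_pow]

/-- Central elements of the kernel are `±1`. -/
theorem homF_ker_pm {hK : Fintype.card K = q ^ 2} (h : KlGood hK φ α β u s) (a b : F)
    (ha : φ a = -(α + β)) (hb : φ b = α * β) (g : ↥(Cfsg.SU 4 K q))
    (hg : homF h a b ha hb g = 1) (hc : g ∈ Subgroup.center ↥(Cfsg.SU 4 K q)) :
    ((g : Matrix.SpecialLinearGroup (Fin 4) K) : Matrix (Fin 4) (Fin 4) K) = 1 ∨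
      ((g : Matrix.SpecialLinearGroup (Fin 4) K) : Matrix (Fin 4) (Fin 4) K) = -1 := by
  obtain ⟨r, hr⟩ := su_center_scalar hK 4 (by norm_num) g hc
  have h1 := homF_scalar_sq h a b ha hb g hg r hr
  have h3 : (r - 1) * (r + 1) = 0 := by linear_combination h1
  rw [hr]
  rcases mul_eq_zero.mp h3 with h4 | h4
  · left
    have : r = 1 := by linear_combination h4
    rw [this, one_smul]
  · right
    have : r = -1 := by linear_combination h4
    rw [this, neg_smul, one_smul]

end descent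

section exist

variable {F K : Type*} [Field F] [Fintype F] [Field K] [Fintype K] {q : ℕ}

/-- Existence of the data for the twisted Klein correspondence. -/
theorem exists_klgood (hF : Fintype.card F = q) (hK : Fintype.card K = q ^ 2) (a b : F)
    (hab : ∀ z₁ z₂ : F, z₁ ^ 2 + a * z₁ * z₂ + b * z₂ ^ 2 = 0 → z₁ = 0 ∧ z₂ = 0) :
    ∃ (φ : F →+* K) (α β u s : K), KlGood hK φ α β u s ∧ φ a = -(α + β) ∧ φ b = α * β := by
  obtain ⟨φ, α, β, hqe, ha, hb⟩ := exists_qext hF hK a b hab
  have hm1 : frobHom hK (-1) = -1 := by rw [map_neg, map_one]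
  obtain ⟨u, hu⟩ := exists_norm_eq (frobHom hK) (frobHom_ne_id hK) (frobHom_invol hK) (-1)
    (neg_ne_zero.mpr one_ne_zero) hm1
  obtain ⟨s, hs⟩ := exists_trace_eq (frobHom hK) (frobHom_ne_id hK) (frobHom_invol hK) (-1) hm1
  exact ⟨φ, α, β, u, s, ⟨hqe, hu, hs⟩, ha, hb⟩

end exist

end Cfsg.Agent.H17
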