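import Mathlib
import Cfsg.Agent.H17.TgDefs

/-! S1904, case D1 (every normal `A`-invariant abelian subgroup is central): assembly of the
pieces (helper17). -/

set_option autoImplicit false

universe u

namespace Cfsg.Agent.H17.Tg

open Cfsg

/-- two commuting involutions independent modulo a centre of order 2 (of exponent 2, with central
commutators) span with it a normal elementary abelian subgroup of order `> 4` -/
theorem no_pair {X : Type u} [Group X] [Finite X] (A : Subgroup (MulAut X)) (hH : Hyp X A)
    (hexp : ∀ z ∈ Subgroup.center X, z ^ 2 = 1)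
    (hcc : ∀ x y : X, x * y * x⁻¹ * y⁻¹ ∈ Subgroup.center X)
    (hZ2 : Nat.card (Subgroup.center X) = 2) :
    ¬ ∃ x y : X, x ∉ Subgroup.center X ∧ x ^ 2 = 1 ∧ y ^ 2 = 1 ∧ x * y = y * x ∧
      y ∉ Subgroup.center X ∧ x * y ∉ Subgroup.center X := by
  classical
  rintro ⟨x, y, hx, hx2, hy2, hxy, hy, hxyZ⟩
  set gens : Set X := (Subgroup.center X : Set X) ∪ {x, y} with hgens
  set E : Subgroup X := Subgroup.closure gens with hE
  have hZE : Subgroup.center X ≤ E := fun z hz => Subgroup.subset_closure (Or.inl hz)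
  have hxE : x ∈ E := Subgroup.subset_closure (Or.inr (by simp))
  have hyE : y ∈ E := Subgroup.subset_closure (Or.inr (by simp))
  -- generators commute pairwise
  have hgc : ∀ a ∈ gens, ∀ b ∈ gens, a * b = b * a := by
    intro a ha b hb
    rw [hgens] at ha hb
    rcases ha with ha | ha
    · exact ((Subgroup.mem_center_iff.mp ha) b).symm
    · rcases hb with hb | hb
      · exact (Subgroup.mem_center_iff.mp hb) a
      · simp only [Set.mem_insert_iff, Set.mem_singleton_iff] at ha hb
        rcases ha with rfl | rfl <;> rcases hb with rfl | rfl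
        · rfl
        · exact hxy
        · exact hxy.symm
        · rfl
  have h1 : ∀ a ∈ gens, ∀ b ∈ E, a * b = b * a := by
    intro a ha b hb
    have : E ≤ Subgroup.centralizer {a} := by
      rw [hE, Subgroup.closure_le]
      intro c hc
      rw [SetLike.mem_coe, Subgroup.mem_centralizer_iff]
      intro d hd
      rw [Set.mem_singleton_iff.mp hd]
      exact hgc _ ha c hc
    have h2 := this hb
    rw [Subgroup.mem_centralizer_iff] at h2
    exact h2 a rfl
  have hEab : ∀ a ∈ E, ∀ b ∈ E, a * b = b * a := by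
    intro a ha b hb
    have : E ≤ Subgroup.centralizer {b} := by
      rw [hE, Subgroup.closure_le]
      intro c hc
      rw [SetLike.mem_coe, Subgroup.mem_centralizer_iff]
      intro d hd
      rw [Set.mem_singleton_iff.mp hd]
      exact (h1 c hc b hb).symm
    have h2 := this ha
    rw [Subgroup.mem_centralizer_iff] at h2
    exact (h2 b rfl).symm
  have hEexp : ∀ a ∈ E, a ^ 2 = 1 := by
    intro a ha
    induction ha using Subgroup.closure_induction with
    | mem c hc =>
      rcases hc with hc | hc
      · exact hexp c hc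
      · simp only [Set.mem_insert_iff, Set.mem_singleton_iff] at hc
        rcases hc with rfl | rfl
        · exact hx2
        · exact hy2
    | one => simp
    | mul a b ha hb iha ihb =>
      have hc : Commute a b := hEab a ha b hb
      rw [hc.mul_pow, iha, ihb, one_mul]
    | inv a ha iha => rw [inv_pow, iha, inv_one]
  have hEn : E.Normal := by
    refine ⟨fun e he g => ?_⟩
    have h2 : g * e * g⁻¹ = (g * e * g⁻¹ * e⁻¹) * e := by group
    rw [h2]
    exact E.mul_mem (hZE (hcc g e)) he
  have hle := hH.rank E hEn hEab E le_rfl hEexp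
  -- five distinct elements of `E`
  have hZne : Subgroup.center X ≠ ⊥ := by
    intro h
    rw [h] at hZ2
    simp at hZ2
  obtain ⟨z, hz1⟩ := (Subgroup.ne_bot_iff_exists_ne_one.mp hZne)
  have hz1' : (z : X) ≠ 1 := fun h => hz1 (Subtype.ext h)
  have hzZ : (z : X) ∈ Subgroup.center X := z.2
  have hx1 : x ≠ 1 := fun h => hx (h ▸ Subgroup.one_mem _)
  have hy1 : y ≠ 1 := fun h => hy (h ▸ Subgroup.one_mem _)
  have hxy1 : x * y ≠ 1 := fun h => hxyZ (h ▸ Subgroup.one_mem _)
  let F : Finset X := {1, (z : X), x, y, x * y}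
  have hFc : F.card = 5 := by
    have e1 : x ≠ y := by
      rintro rfl
      apply hxyZ
      rw [← pow_two, hx2]
      exact Subgroup.one_mem _
    have e2 : x ≠ x * y := fun h => hy1 (by simpa using h.symm)
    have e3 : y ≠ x * y := fun h => hx1 (by simpa using h.symm)
    have e4 : (z : X) ≠ x := fun h => hx (h ▸ hzZ)
    have e5 : (z : X) ≠ y := fun h => hy (h ▸ hzZ)
    have e6 : (z : X) ≠ x * y := fun h => hxyZ (h ▸ hzZ)
    rw [Finset.card_insert_of_notMem, Finset.card_insert_of_notMem, Finset.card_insert_of_notMem,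
      Finset.card_insert_of_notMem, Finset.card_singleton]
    · simp [e3]
    · simp [e1, e2]
    · simp [e4, e5, e6]
    · simp [Ne.symm hz1', Ne.symm hx1, Ne.symm hy1, Ne.symm hxy1]
  have hFE : (F : Set X) ⊆ (E : Set X) := by
    intro a ha
    simp only [F, Finset.coe_insert, Finset.coe_singleton, Set.mem_insert_iff,
      Set.mem_singleton_iff] at ha
    rcases ha with rfl | rfl | rfl | rfl | rfl
    · exact E.one_mem
    · exact hZE hzZ
    · exact hxE
    · exact hyE
    · exact E.mul_mem hxE hyE
  have h5 : 5 ≤ Nat.card E := by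
    have := Set.ncard_le_ncard hFE (Set.toFinite _)
    rw [Set.ncard_coe_finset, hFc] at this
    have h := Nat.card_coe_set_eq (E : Set X)
    change Nat.card E = _ at h
    omega
  omega

theorem d1main (hQuot : StD1Quot.{u}) (hExpT : StD1ExpT.{u}) (hExpN : StD1ExpN.{u})
    (hComm : StD1Comm.{u}) (hInv : StD1Inv.{u}) (hFrat : StFrat.{u}) (hE16 : StE16.{u})
    (hE64 : StE64.{u}) (hE32 : StE32.{u}) (hE8 : StE8.{u}) (hCW5 : StCW5.{u}) (hN3 : StN3.{u})
    (hN2 : StN2.{u}) : StD1Main.{u} := by
  intro X _ _ A hH hna hD1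
  classical
  have : Fact (Nat.Prime 2) := ⟨Nat.prime_two⟩
  obtain ⟨hsq, hcc⟩ := hQuot X A hH hD1
  have hexp : ∀ z ∈ Subgroup.center X, z ^ 2 = 1 := by
    by_cases hT : ∀ φ ∈ A, ∀ v ∈ Subgroup.center X, v ^ 2 = 1 → φ v = v
    · exact hExpT X A hH hD1 hT
    · push Not at hT
      obtain ⟨φ, hφ, v, hv, hv2, hne⟩ := hT
      exact hExpN X A hH hna hD1 ⟨φ, hφ, v, hv, hv2, hne⟩
  have hZle : Nat.card (Subgroup.center X) ≤ 4 :=
    hH.rank (Subgroup.center X) inferInstance
      (fun a _ b hb => (Subgroup.mem_center_iff.mp hb) a) (Subgroup.center X) le_rfl hexp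
  have : Nontrivial X := by
    by_contra h
    rw [not_nontrivial_iff_subsingleton] at h
    exact hna (fun a b => by rw [Subsingleton.elim a b])
  have := hH.pgrp.center_nontrivial
  have hZ1 : 1 < Nat.card (Subgroup.center X) := Finite.one_lt_card
  obtain ⟨n, hn⟩ := IsPGroup.iff_card.mp (hH.pgrp.to_subgroup (Subgroup.center X))
  obtain ⟨k, hk⟩ := IsPGroup.iff_card.mp hH.pgrp
  have hcomm : commutator X = Subgroup.center X := hComm X A hH hna hD1
  have hfrat : frattini X = Subgroup.center X := hFrat X hH.pgrp hcomm hsq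
  have hspec : Cfsg.IsSpecial 2 X := ⟨hH.pgrp, hfrat, hcomm⟩
  have hZX : Nat.card (Subgroup.center X) ≤ Nat.card X := Subgroup.card_le_card_group _
  have hn12 : n = 1 ∨ n = 2 := by
    rw [hn] at hZle hZ1
    have h3 : n < 3 := by
      by_contra h
      have : 2 ^ 3 ≤ 2 ^ n := Nat.pow_le_pow_right (by norm_num) (by omega)
      omega
    interval_cases n <;> simp_all
  rcases hn12 with rfl | rfl
  · -- `|Z| = 2`
    have hZ2 : Nat.card (Subgroup.center X) = 2 := by rw [hn]; norm_num
    have hnp := no_pair A hH hexp hcc hZ2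
    have hk6 : k < 6 := by
      by_contra h
      have h64 : 64 ≤ Nat.card X := by
        rw [hk]
        calc 64 = 2 ^ 6 := by norm_num
          _ ≤ 2 ^ k := Nat.pow_le_pow_right (by norm_num) (by omega)
      exact hnp (hE64 X hZ2 hsq h64)
    interval_cases k
    · rw [hZ2] at hZX; norm_num at hk; omega
    · exfalso
      have htop : Subgroup.center X = ⊤ := by
        rw [← Subgroup.card_eq_iff_eq_top, hZ2, hk]; norm_num
      apply hna
      intro a b
      have : b ∈ Subgroup.center X := by rw [htop]; trivial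
      exact (Subgroup.mem_center_iff.mp this) a
    · exact absurd (fun a b => IsPGroup.commutative_of_card_eq_prime_sq (p := 2) hk a b) hna
    · exact Or.inl (hE8 X A hH (by rw [hk]; norm_num) hna)
    · exact absurd (by rw [hk]; norm_num) (hE16 X hZ2 hsq)
    · have h32 : Nat.card X = 32 := by rw [hk]; norm_num
      exact Or.inr (Or.inr ⟨⟨hspec, hZ2⟩, h32, hE32 X hZ2 hsq h32 hnp⟩)
  · -- `|Z| = 4`
    have hZ4 : Nat.card (Subgroup.center X) = 4 := by rw [hn]; norm_num
    have hinv2 : ∀ t : X, t ^ 2 = 1 → t ∈ Subgroup.center X := hInv X A hH hna hD1 hZ4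
    have h32 : 32 ≤ Nat.card X := hN2 X hH.pgrp hZ4 hcomm
    have hk7 : k < 7 := by
      by_contra h
      have h128 : 128 ≤ Nat.card X := by
        rw [hk]
        calc 128 = 2 ^ 7 := by norm_num
          _ ≤ 2 ^ k := Nat.pow_le_pow_right (by norm_num) (by omega)
      obtain ⟨t, ht, ht2⟩ := hCW5 X hZ4 hexp hsq h128
      exact ht (hinv2 t ht2)
    have hk5 : 5 ≤ k := by
      by_contra h
      have : 2 ^ k ≤ 2 ^ 4 := Nat.pow_le_pow_right (by norm_num) (by omega)
      rw [hk] at h32
      omega
    interval_cases k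
    · exact absurd (by rw [hk]; norm_num) (hN3 X A hH hZ4 hexp hsq hcomm hinv2)
    · have h64 : Nat.card X = 64 := by rw [hk]; norm_num
      have hinv : ∀ x : X, orderOf x = 2 → x ∈ Subgroup.center X := fun x hx =>
        hinv2 x (by rw [← hx]; exact pow_orderOf_eq_one x)
      have hset : {x : X | orderOf x = 2} = (Subgroup.center X : Set X) \ {1} := by
        ext x
        constructor
        · intro hx
          refine ⟨hinv x hx, ?_⟩
          rintro rfl
          simp at hx
        · rintro ⟨hxZ, hx1⟩
          exact orderOf_eq_prime (hexp x hxZ) hx1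
      have hcount : Nat.card {x : X // orderOf x = 2} = 3 := by
        have h1 : Nat.card {x : X // orderOf x = 2} = Set.ncard {x : X | orderOf x = 2} :=
          Nat.card_coe_set_eq _
        rw [h1, hset, Set.ncard_sdiff_singleton_of_mem (Subgroup.one_mem _)]
        have h2 : Set.ncard (Subgroup.center X : Set X) = 4 := by
          rw [← Nat.card_coe_set_eq]; exact hZ4
        rw [h2]
      exact Or.inr (Or.inl ⟨hspec, h64, hcount, hinv⟩)

end Cfsg.Agent.H17.Tg
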