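import Mathlib
import Cfsg.Agent.H17.TgDefs

/-! S1904, case D2 (some normal `A`-invariant abelian subgroup is not central): assembly of the
pieces (helper17). -/

set_option autoImplicit false

universe u

namespace Cfsg.Agent.H17.Tg

open Cfsg

/-- every NAI subgroup lies in a maximal one -/
theorem exists_maxNAI {X : Type u} [Group X] [Finite X] (A : Subgroup (MulAut X))
    (B : Subgroup X) (hB : NAI A B) : ∃ B' : Subgroup X, MaxNAI A B' ∧ B ≤ B' := by
  classical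
  have hfin : {C : Subgroup X | NAI A C ∧ B ≤ C}.Finite := Set.toFinite _
  obtain ⟨M, hM⟩ := hfin.exists_maximal ⟨B, hB, le_refl B⟩
  refine ⟨M, ⟨hM.prop.1, fun B' hB' hle => ?_⟩, hM.prop.2⟩
  have h1 : B' ∈ {C : Subgroup X | NAI A C ∧ B ≤ C} := ⟨hB', hM.prop.2.trans hle⟩
  exact le_antisymm (hM.le_of_ge h1 hle) hle

theorem d2main (hM2 : StM2.{u}) (hQex1 : StQex1.{u}) (hQex2 : StQex2.{u})
    (hQ0d : StQ0d.{u}) (hCrit : StCrit.{u}) : StD2Main.{u} := by
  intro X _ _ A hH B₀ hB₀ hB₀n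
  obtain ⟨B, hB, hle⟩ := exists_maxNAI A B₀ hB₀
  have hBn : ¬ B ≤ Subgroup.center X := fun h => hB₀n (hle.trans h)
  by_cases hexp : ∀ b ∈ B, b ^ 4 = 1
  · exact Or.inr (Or.inl (hM2 X A hH B hB hBn hexp))
  · exfalso
    push Not at hexp
    have hexp' : ∃ b ∈ B, b ^ 4 ≠ 1 := hexp
    -- an element outside `B` centralizing the squares
    have hq : ∃ q : X, q ∉ B ∧ ∀ b ∈ B, q * b ^ 2 = b ^ 2 * q := by
      by_cases hy : ∃ y : X, y ∉ B ∧ ∀ b ∈ B, b ^ 4 = 1 → y * b = b * y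
      · exact hQex1 X A hH B hB hBn hexp' hy
      · exfalso
        push Not at hy
        refine hQex2 X A hH B hB hBn hexp' (fun y hy' => ?_)
        by_contra hyB
        obtain ⟨b, hb, hb4, hne⟩ := hy y hyB
        exact hne (hy' b hb hb4)
    obtain ⟨q, hqB, hqc⟩ := hq
    have hBnorm : B.Normal := hB.1.1
    have hBab := hB.1.2.2
    -- `Q`, the centralizer of the squares of `B`
    let S : Set X := {s | ∃ b ∈ B, s = b ^ 2}
    have hQn : (Subgroup.centralizer S).Normal := by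
      refine ⟨fun n hn g => ?_⟩
      rw [Subgroup.mem_centralizer_iff] at hn ⊢
      rintro s ⟨b, hb, rfl⟩
      have hb' : g⁻¹ * b * g ∈ B := by
        have := hBnorm.conj_mem b hb g⁻¹
        simpa using this
      have h1 := hn ((g⁻¹ * b * g) ^ 2) ⟨_, hb', rfl⟩
      have h2 : (g⁻¹ * b * g) ^ 2 = g⁻¹ * b ^ 2 * g := by
        simp [pow_two, mul_assoc]
      rw [h2] at h1
      calc b ^ 2 * (g * n * g⁻¹) = g * ((g⁻¹ * b ^ 2 * g) * n) * g⁻¹ := by simp [mul_assoc]
        _ = g * (n * (g⁻¹ * b ^ 2 * g)) * g⁻¹ := by rw [h1]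
        _ = g * n * g⁻¹ * b ^ 2 := by simp [mul_assoc]
    have hBQ : B ≤ Subgroup.centralizer S := by
      intro c hc
      rw [Subgroup.mem_centralizer_iff]
      rintro s ⟨b, hb, rfl⟩
      exact hBab _ (B.pow_mem hb 2) c hc
    have hqQ : q ∈ Subgroup.centralizer S := by
      rw [Subgroup.mem_centralizer_iff]
      rintro s ⟨b, hb, rfl⟩
      exact (hqc b hb).symm
    have hne : B ≠ Subgroup.centralizer S := fun h => hqB (h ▸ hqQ)
    obtain ⟨k, hkQ, hkB, hk2, hkc⟩ := hCrit X hH.pgrp B (Subgroup.centralizer S) hBnorm hQn hBQ hne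
    have hkIn : InQ0 B k := by
      refine ⟨fun b hb => ?_, hk2, hkc⟩
      rw [Subgroup.mem_centralizer_iff] at hkQ
      exact (hkQ (b ^ 2) ⟨b, hb, rfl⟩).symm
    exact hkB (hQ0d X A hH B hB hBn hexp' k hkIn)

end Cfsg.Agent.H17.Tg
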