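import Mathlib
import Cfsg.Agent.H17.TgDefs

/-! S1904: the main statement from the rank piece and the two halves (helper17). -/

set_option autoImplicit false

universe u

namespace Cfsg.Agent.H17.Tg

open Cfsg

theorem main (hRank : StRank.{u}) (hD1 : StD1Main.{u}) (hD2 : StD2Main.{u})
    {X : Type u} [Group X] [Finite X] (hX : IsPGroup 2 X) (hna : ¬ IsMulCommutative X)
    (hscn : ¬ ∃ A : Subgroup X, A.Normal ∧ Subgroup.centralizer (A : Set X) = A ∧
      ∃ E : Subgroup X, E ≤ A ∧ Cfsg.IsElementaryAbelian 2 E ∧ Nat.card E = 8)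
    (A : Subgroup (MulAut X)) (hA : Odd (Nat.card A))
    (hXA : Subgroup.closure {g : X | ∃ φ ∈ A, ∃ x : X, g = x⁻¹ * φ x} = ⊤) : Concl X := by
  have hH : Hyp X A := ⟨hX, hA, hXA, hRank X hX hscn⟩
  have hna' : ¬ ∀ a b : X, a * b = b * a := fun h => hna ⟨⟨h⟩⟩
  by_cases h : ∀ B : Subgroup X, NAI A B → B ≤ Subgroup.center X
  · exact hD1 X A hH hna' h
  · push Not at h
    obtain ⟨B, hB, hBn⟩ := h
    exact hD2 X A hH B hB hBn

end Cfsg.Agent.H17.Tg
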